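import Cfsg.Agent.H471.Eight.Pack

/-!
# At least eight character degrees from certificates, by cells (helper471, for S4899)

The columns are functions of the degree: every residue of the degree modulo the prime occurs once in the list `wl`.
The degrees are divided into cells by the values of the columns. A certificate is a quadratic form, nonnegative outside
an interval of each cell; every certificate shows that some degree is in the union of its intervals.
-/

set_option autoImplicit false
set_option linter.unusedSectionVars false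

open Cfsg

namespace Cfsg.Agent.H471.Eight.Cell

open Cfsg.Agent.Characters.Core Cfsg.Agent.H653.Sieve Cfsg.Agent.H653.Sys
open Cfsg.Agent.H664.Eight

universe u

/-! ### Quadratic forms -/

def linB : List Cf → List ℤ → ℤ
  | c :: cs, w :: ws => c.g * w + linB cs ws
  | _, _ => 0

def linC : List Cf → List ℤ → ℤ
  | c :: cs, w :: ws => c.q * w * w + c.r * (bif Nat.beq w.natAbs 1 then 1 else 0) + w * dot c.x ws + linC cs ws
  | _, _ => 0

theorem quad_eq (d : ℤ) : ∀ (cs : List Cf) (ws : List ℤ), quad d cs ws = linB cs ws * d + linC cs ws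
  | [], _ => by simp [quad, linB, linC]
  | _ :: _, [] => by simp [quad, linB, linC]
  | c :: cs, w :: ws => by
    rw [quad, linB, linC, quad_eq d cs ws]
    ring

/-- the form is nonnegative outside `[lo, hi]` -/
def cellOK (N : ℕ) (a B C : ℤ) (lo hi : ℕ) : Bool :=
  (Nat.ble lo 1 || (decide (0 ≤ a * ((lo : ℤ) - 1) * ((lo : ℤ) - 1) + B * ((lo : ℤ) - 1) + C) &&
    decide (2 * a * ((lo : ℤ) - 1) + B ≤ 0))) &&
  (Nat.ble N (hi * hi) || (decide (0 ≤ a * ((hi : ℤ) + 1) * ((hi : ℤ) + 1) + B * ((hi : ℤ) + 1) + C) &&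
    decide (0 ≤ 2 * a * ((hi : ℤ) + 1) + B)))

theorem cellOK_spec {N : ℕ} {a B C : ℤ} {lo hi : ℕ} (ha : 0 ≤ a) (h : cellOK N a B C lo hi = true) {d : ℕ} (h1 : 1 ≤ d)
    (hd : d * d < N) (hn : ¬ (lo ≤ d ∧ d ≤ hi)) : 0 ≤ a * d * d + (B * d + C) := by
  simp only [cellOK, Bool.and_eq_true, Bool.or_eq_true, decide_eq_true_eq, Nat.ble_eq] at h
  obtain ⟨h2, h3⟩ := h
  by_cases hlo : d < lo
  · rcases h2 with h2 | ⟨h4, h5⟩
    · omega
    · set l : ℤ := (lo : ℤ) - 1 with hl
      have h6 : (d : ℤ) ≤ l := by omega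
      have h7 : a * (d + l) + B ≤ 0 := by nlinarith
      have h8 : 0 ≤ ((d : ℤ) - l) * (a * (d + l) + B) := mul_nonneg_of_nonpos_of_nonpos (by linarith) h7
      nlinarith
  · have hhi : hi < d := by
      by_contra h6
      exact hn ⟨not_lt.1 hlo, not_lt.1 h6⟩
    rcases h3 with h3 | ⟨h4, h5⟩
    · have : hi * hi ≤ d * d := Nat.mul_le_mul hhi.le hhi.le
      omega
    · set m : ℤ := (hi : ℤ) + 1 with hm
      have h6 : m ≤ (d : ℤ) := by omega
      have h7 : 0 ≤ a * (d + m) + B := by nlinarith
      have h8 : 0 ≤ ((d : ℤ) - m) * (a * (d + m) + B) := mul_nonneg (by linarith) h7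
      nlinarith

/-! ### Cells -/

/-- position and value -/
def look (r : ℕ) : List (ℕ × ℤ) → Option (ℕ × ℤ)
  | [] => none
  | x :: l => bif Nat.beq r x.1 then some (0, x.2) else (look r l).map fun y => (y.1 + 1, y.2)

/-- the code and the values of the cell of `d` -/
def cellD (d : ℕ) : List (ℕ × List (ℕ × ℤ)) → Option (ℕ × List ℤ)
  | [] => some (0, [])
  | c :: cs => match look (d % c.1) c.2, cellD d cs with
    | some x, some y => some (x.1 + c.2.length * y.1, x.2 :: y.2)
    | _, _ => none

def vals : List (ℕ × List (ℕ × ℤ)) → List (List ℤ)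
  | [] => [[]]
  | c :: cs => (vals cs).flatMap fun v => c.2.map fun x => x.2 :: v

theorem look_spec {r : ℕ} : ∀ {l : List (ℕ × ℤ)} {x : ℕ × ℤ}, look r l = some x →
    ∃ y, l[x.1]? = some y ∧ y.1 = r ∧ y.2 = x.2
  | [], x, h => by simp [look] at h
  | z :: l, x, h => by
    rw [look] at h
    cases hb : Nat.beq r z.1
    · rw [hb, cond_false, Option.map_eq_some_iff] at h
      obtain ⟨y, hy, rfl⟩ := h
      obtain ⟨u, h1, h2, h3⟩ := look_spec hy
      exact ⟨u, by simpa using h1, h2, h3⟩
    · rw [hb, cond_true, Option.some.injEq] at h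
      subst h
      exact ⟨z, by simp, (Nat.eq_of_beq_eq_true hb).symm, rfl⟩

theorem look_of_mem {r : ℕ} {w : ℤ} : ∀ {l : List (ℕ × ℤ)}, (l.map Prod.fst).Nodup → (r, w) ∈ l →
    ∃ i, look r l = some (i, w)
  | [], _, h => by simp at h
  | z :: l, hn, h => by
    rw [look]
    rw [List.map_cons, List.nodup_cons] at hn
    cases hb : Nat.beq r z.1
    · rcases List.mem_cons.1 h with h | h
      · subst h
        rw [Nat.beq_refl] at hb
        exact absurd hb (by simp)
      · obtain ⟨i, hi⟩ := look_of_mem hn.2 h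
        exact ⟨i + 1, by rw [cond_false, hi]; rfl⟩
    · rcases List.mem_cons.1 h with h | h
      · subst h
        exact ⟨0, rfl⟩
      · exfalso
        apply hn.1
        rw [← Nat.eq_of_beq_eq_true hb]
        exact List.mem_map.2 ⟨_, h, rfl⟩

theorem getElem?_flatMap {α β : Type*} (f : α → List β) (n : ℕ) : ∀ (l : List α), (∀ a ∈ l, (f a).length = n) →
    ∀ (i j : ℕ) (a : α), l[i]? = some a → j < n → (l.flatMap f)[j + n * i]? = (f a)[j]?
  | [], _, i, j, a, h, _ => by simp at h
  | b :: l, hl, i, j, a, h, hj => by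
    rw [List.flatMap_cons]
    have hb : (f b).length = n := hl b List.mem_cons_self
    rcases i with _ | i
    · simp only [List.getElem?_cons_zero, Option.some.injEq] at h
      subst h
      rw [List.getElem?_append_left (by omega)]
      simp
    · rw [List.getElem?_append_right (by rw [hb]; nlinarith [Nat.zero_le j])]
      have h1 := getElem?_flatMap f n l (fun a ha => hl a (List.mem_cons_of_mem _ ha)) i j a (by simpa using h) hj
      rw [← h1, hb]
      congr 1
      rw [Nat.mul_succ]
      omega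

theorem vals_spec {d : ℕ} : ∀ {cs : List (ℕ × List (ℕ × ℤ))} {x : ℕ × List ℤ}, cellD d cs = some x →
    (vals cs)[x.1]? = some x.2
  | [], x, h => by
    simp only [cellD, Option.some.injEq] at h
    subst h
    rfl
  | c :: cs, x, h => by
    rw [cellD] at h
    cases h1 : look (d % c.1) c.2 with
    | none => rw [h1] at h; simp at h
    | some y =>
      cases h2 : cellD d cs with
      | none => rw [h1, h2] at h; simp at h
      | some z =>
        rw [h1, h2] at h
        simp only [Option.some.injEq] at h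
        subst h
        have h3 := vals_spec h2
        obtain ⟨u, h4, h5, h6⟩ := look_spec h1
        have hlt : y.1 < c.2.length := (List.getElem?_eq_some_iff.1 h4).1
        rw [vals]
        have h7 := getElem?_flatMap (fun v => c.2.map fun x => x.2 :: v) c.2.length (vals cs)
          (fun a _ => by rw [List.length_map]) z.1 y.1 z.2 h3 hlt
        rw [h7, List.getElem?_map, h4]
        simp [h6]

/-! ### The certificates -/

structure Ct where
  a : ℤ
  cs : List Cf
  ms : List ℤ

/-- all the certificates on one cell -/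
def rowOK (N : ℕ) (ws : List ℤ) : List Ct → List (ℕ × ℕ) → Bool
  | [], _ => true
  | c :: cts, I :: Is => cellOK N c.a (linB c.cs ws) (linC c.cs ws) I.1 I.2 && rowOK N ws cts Is
  | _ :: _, [] => false

def allRows (N : ℕ) (cts : List Ct) : List (List ℤ) → List (List (ℕ × ℕ)) → Bool
  | [], _ => true
  | ws :: vs, r :: J => rowOK N ws cts r && allRows N cts vs J
  | _ :: _, [] => false

theorem rowOK_spec {N : ℕ} {ws : List ℤ} : ∀ {cts : List Ct} {Is : List (ℕ × ℕ)}, rowOK N ws cts Is = true →
    ∀ {q : ℕ} {c : Ct}, cts[q]? = some c → ∃ I, Is[q]? = some I ∧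
      cellOK N c.a (linB c.cs ws) (linC c.cs ws) I.1 I.2 = true
  | [], _, _, q, c, h => by simp at h
  | c' :: cts, [], h, _, _, _ => by simp [rowOK] at h
  | c' :: cts, I :: Is, h, q, c, hc => by
    rw [rowOK, Bool.and_eq_true] at h
    rcases q with _ | q
    · simp only [List.getElem?_cons_zero, Option.some.injEq] at hc
      subst hc
      exact ⟨I, by simp, h.1⟩
    · obtain ⟨I', h1, h2⟩ := rowOK_spec h.2 (q := q) (c := c) (by simpa using hc)
      exact ⟨I', by simpa using h1, h2⟩

theorem allRows_spec {N : ℕ} {cts : List Ct} : ∀ {vs : List (List ℤ)} {J : List (List (ℕ × ℕ))},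
    allRows N cts vs J = true → ∀ {i : ℕ} {ws : List ℤ}, vs[i]? = some ws → ∃ r, J[i]? = some r ∧
      rowOK N ws cts r = true
  | [], _, _, i, ws, h => by simp at h
  | v :: vs, [], h, _, _, _ => by simp [allRows] at h
  | v :: vs, r :: J, h, i, ws, hi => by
    rw [allRows, Bool.and_eq_true] at h
    rcases i with _ | i
    · simp only [List.getElem?_cons_zero, Option.some.injEq] at hi
      subst hi
      exact ⟨r, by simp, h.1⟩
    · obtain ⟨r', h1, h2⟩ := allRows_spec h.2 (i := i) (ws := ws) (by simpa using hi)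
      exact ⟨r', by simpa using h1, h2⟩

/-- the known degrees -/
def knOK (RW : List (ℕ × List (ℕ × ℤ))) (Cs : List Cond) (c : Ct) : List ℕ → Bool
  | [] => true
  | k :: K => (match cellD k RW with
    | some x => decide (0 ≤ c.a * k * k + quad k c.cs x.2 + exSum k (exOf Cs c.ms))
    | none => true) && knOK RW Cs c K

theorem knOK_spec {RW : List (ℕ × List (ℕ × ℤ))} {Cs : List Cond} {c : Ct} : ∀ {K : List ℕ}, knOK RW Cs c K = true →
    ∀ {k : ℕ} {x : ℕ × List ℤ}, k ∈ K → cellD k RW = some x →
      0 ≤ c.a * k * k + quad k c.cs x.2 + exSum k (exOf Cs c.ms)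
  | [], _, _, _, h, _ => by simp at h
  | k' :: K, h, k, x, hk, hx => by
    rw [knOK, Bool.and_eq_true] at h
    rcases List.mem_cons.1 hk with rfl | hk
    · have h1 := h.1
      rw [hx] at h1
      simpa using h1
    · exact knOK_spec h.2 hk hx

theorem exSum_condEq {d : ℕ} : ∀ {K : List ℕ} {ms : List ℤ}, d ∉ K → exSum d (exOf (K.map condEq) ms) = 0
  | [], _, _ => by simp [exOf, H653.Sys.exSum]
  | k :: K, [], _ => by simp [exOf, H653.Sys.exSum]
  | k :: K, m :: ms, h => by
    rw [List.mem_cons, not_or] at h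
    rw [List.map_cons, exOf, H653.Sys.exSum, exSum_condEq h.2]
    have h1 : (condEq k).P d = false := by
      change Nat.beq d k = false
      rw [Bool.eq_false_iff]
      exact fun h2 => h.1 (Nat.eq_of_beq_eq_true h2)
    change (bif (condEq k).P d then m else 0) + 0 = 0
    rw [h1]
    rfl

/-- the interval of the certificate `q` contains `d` -/
def inQ (RW : List (ℕ × List (ℕ × ℤ))) (J : List (List (ℕ × ℕ))) (q d : ℕ) : Bool :=
  match cellD d RW with
  | none => false
  | some x => match J[x.1]? with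
    | none => false
    | some r => match r[q]? with
      | none => false
      | some I => Nat.ble I.1 d && Nat.ble d I.2

def ctOK (N : ℕ) (Fs : List Fam) (RW : List (ℕ × List (ℕ × ℤ))) (K : List ℕ) (c : Ct) : Bool :=
  decide (0 ≤ c.a) && sgOK (K.map condEq) c.ms && certOK N c.a c.cs (exOf (K.map condEq) c.ms) Fs &&
    knOK RW (K.map condEq) c K

section

variable {S : Type u} [Group S] [Fintype (IrrCharacter S)] {lab : S → ℕ} {N : ℕ} {Fs : List Fam}
  {RW : List (ℕ × List (ℕ × ℤ))} {K : List ℕ}

/-- the context -/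
structure CC (S : Type u) [Group S] [Fintype (IrrCharacter S)] (lab : S → ℕ) (N : ℕ) (Fs : List Fam)
    (RW : List (ℕ × List (ℕ × ℤ))) (K : List ℕ) : Prop where
  conj : ∀ g h : S, IsConj g h → lab g = lab h
  lone : lab 1 = 1
  card : Nat.card S = N
  sys : ∃ Ws, SysOK lab Fs Ws ∧ ∀ χ : IrrCharacter S, ∃ i, cellD (deg χ) RW = some (i, Ws.map fun W => W χ)
  one : ∀ χ : IrrCharacter S, deg χ = 1 → (χ : S → ℂ) = 1
  lt : ∀ χ : IrrCharacter S, (χ : S → ℂ) ≠ 1 → deg χ * deg χ < N
  known : ∀ k ∈ K, ∃ χ : IrrCharacter S, charDegree (χ : S → ℂ) = k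

theorem CC.must [Finite S] (C : CC S lab N Fs RW K) {cts : List Ct} {J : List (List (ℕ × ℕ))}
    (hJ : allRows N cts (vals RW) J = true) {q : ℕ} {c : Ct} (hq : cts[q]? = some c) (hc : ctOK N Fs RW K c = true) :
    ∃ χ : IrrCharacter S, (χ : S → ℂ) ≠ 1 ∧ deg χ ∉ K ∧ inQ RW J q (deg χ) = true := by
  simp only [ctOK, Bool.and_eq_true, decide_eq_true_eq] at hc
  obtain ⟨⟨⟨ha, hsg⟩, hce⟩, hkn⟩ := hc
  obtain ⟨Ws, hs, hcell⟩ := C.sys
  have hcond : ∀ c ∈ K.map condEq, c.Holds S := by
    intro c hc
    obtain ⟨k, hk, rfl⟩ := List.mem_map.1 hc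
    exact condEq_holds (C.known k hk)
  obtain ⟨χ, hχ, hQ⟩ := exists_of_pos C.conj C.lone N C.card hs (exOf (K.map condEq) c.ms) (exOf_holds hcond hsg) c.a c.cs
    (fun d => !memL d K && inQ RW J q d) hce (by
      intro χ hχ hQ
      obtain ⟨i, hi⟩ := hcell χ
      rw [Bool.and_eq_false_iff] at hQ
      by_cases hK : deg χ ∈ K
      · have h1 := knOK_spec hkn hK hi
        simpa using h1
      · rw [exSum_condEq hK, add_zero, quad_eq]
        have hin : inQ RW J q (deg χ) = false := by
          rcases hQ with h | h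
          · exfalso
            rw [Bool.not_eq_false'] at h
            exact hK (mem_of_memL h)
          · exact h
        have h1 := vals_spec hi
        obtain ⟨r, hr, hrow⟩ := allRows_spec hJ h1
        obtain ⟨I, hI, hcl⟩ := rowOK_spec hrow hq
        refine cellOK_spec ha hcl ?_ (C.lt χ hχ) ?_
        · exact Cfsg.Agent.Blocks.Basic.charDegree_pos χ.2
        · rintro ⟨h2, h3⟩
          rw [inQ, hi] at hin
          simp only [hr, hI, Nat.ble_eq_true_of_le h2, Nat.ble_eq_true_of_le h3, Bool.and_self] at hin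
          exact Bool.false_ne_true hin.symm)
  rw [Bool.and_eq_true, Bool.not_eq_true'] at hQ
  refine ⟨χ, hχ, fun h => ?_, hQ.2⟩
  rw [memL_of_mem h] at hQ
  exact Bool.false_ne_true hQ.1.symm

end

/-! ### Counting -/

/-- the total weight of the intervals containing `d` -/
def wtI (d : ℕ) : List ℕ → List (ℕ × ℕ) → ℕ
  | w :: ws, I :: Is => (bif Nat.ble I.1 d then bif Nat.ble d I.2 then w else 0 else 0) + wtI d ws Is
  | _, _ => 0

/-- the check of the divisor `d` -/
def pkD (RW : List (ℕ × List (ℕ × ℤ))) (J : List (List (ℕ × ℕ))) (K wts : List ℕ) (M : ℕ) (d : ℕ) : Bool :=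
  match cellD d RW with
  | none => true
  | some x => bif memL d (1 :: K) then true else
    match J[x.1]? with
    | none => true
    | some r => Nat.ble (wtI d wts r) M

theorem sum_le_wtI (d : ℕ) : ∀ (wts : List ℕ) (r : List (ℕ × ℕ)),
    ∑ q ∈ Finset.range wts.length, (if (match r[q]? with
      | none => false
      | some I => Nat.ble I.1 d && Nat.ble d I.2) = true then wts.getD q 0 else 0) ≤ wtI d wts r
  | [], r => by simp
  | w :: ws, [] => by simp [wtI]
  | w :: ws, I :: Is => by
    rw [List.length_cons, Finset.sum_range_succ', wtI]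
    have h1 := sum_le_wtI d ws Is
    simp only [List.getElem?_cons_succ, List.getD_cons_succ, List.getElem?_cons_zero, List.getD_cons_zero]
    have h2 : (if (Nat.ble I.1 d && Nat.ble d I.2) = true then w else 0) ≤
        (bif Nat.ble I.1 d then bif Nat.ble d I.2 then w else 0 else 0) := by
      cases Nat.ble I.1 d <;> cases Nat.ble d I.2 <;> simp
    omega

/-- **Eight degrees.** -/
theorem eight_of_must {S : Type u} [Group S] [Finite S] {RW : List (ℕ × List (ℕ × ℤ))} {J : List (List (ℕ × ℕ))}
    {K wts : List ℕ} {M : ℕ} (hK : ∀ k ∈ K, k ∈ charDegrees S) (hnd : (1 :: K).Nodup) (hK6 : K.length ≤ 6)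
    (hdeg : ∀ d ∈ charDegrees S, pkD RW J K wts M d = true)
    (hQ : ∀ q < wts.length, ∃ d ∈ charDegrees S, d ≠ 1 ∧ d ∉ K ∧ inQ RW J q d = true)
    (hM : M * (6 - K.length) < wts.sum) : Eight S := by
  classical
  have hfin : (charDegrees S).Finite := finite_charDegrees
  set A := hfin.toFinset with hA
  have hAc : (charDegrees S).ncard = A.card := Set.ncard_eq_toFinset_card _ hfin
  set B := A \ (1 :: K).toFinset with hB
  have hmem : ∀ d, d ∈ A ↔ d ∈ charDegrees S := fun d => by rw [hA, Set.Finite.mem_toFinset]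
  have hsub : (1 :: K).toFinset ⊆ A := by
    intro d hd
    rw [List.mem_toFinset] at hd
    rw [hmem]
    rcases List.mem_cons.1 hd with rfl | hd
    · exact one_mem
    · exact hK d hd
  have hcard : (1 :: K).toFinset.card = K.length + 1 := by
    rw [List.toFinset_card_of_nodup hnd, List.length_cons]
  have hBc : A.card = B.card + (K.length + 1) := by
    have h1 := Finset.card_sdiff_add_card_eq_card hsub
    rw [hcard] at h1
    rw [hB]
    exact h1.symm
  have hmemB : ∀ d, d ∈ B ↔ d ∈ charDegrees S ∧ d ≠ 1 ∧ d ∉ K := by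
    intro d
    rw [hB, Finset.mem_sdiff, hmem, List.mem_toFinset, List.mem_cons, not_or]
  -- the weights
  have h1 : wts.sum ≤ ∑ d ∈ B, ∑ q ∈ Finset.range wts.length, (if inQ RW J q d = true then wts.getD q 0 else 0) := by
    rw [Finset.sum_comm]
    have h2 : wts.sum = ∑ q ∈ Finset.range wts.length, wts.getD q 0 := by
      clear * -
      induction wts with
      | nil => simp
      | cons w ws ih =>
        rw [List.sum_cons, List.length_cons, Finset.sum_range_succ', ih]
        simp only [List.getD_cons_succ, List.getD_cons_zero]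
        omega
    rw [h2]
    refine Finset.sum_le_sum fun q hq => ?_
    obtain ⟨d, hd, hd1, hdK, hdq⟩ := hQ q (Finset.mem_range.1 hq)
    have h3 := Finset.single_le_sum (f := fun d => (if inQ RW J q d = true then wts.getD q 0 else 0))
      (fun _ _ => Nat.zero_le _) ((hmemB d).2 ⟨hd, hd1, hdK⟩)
    simp only [hdq, if_true] at h3
    exact h3
  have h2 : ∑ d ∈ B, ∑ q ∈ Finset.range wts.length, (if inQ RW J q d = true then wts.getD q 0 else 0) ≤ ∑ d ∈ B, M := by
    refine Finset.sum_le_sum fun d hd => ?_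
    obtain ⟨hd, hd1, hdK⟩ := (hmemB d).1 hd
    have h3 := hdeg d hd
    rw [pkD] at h3
    cases hc : cellD d RW with
    | none =>
      refine (Finset.sum_eq_zero fun q _ => ?_).le.trans (Nat.zero_le _)
      rw [inQ, hc]
      simp
    | some x =>
      have hm : memL d (1 :: K) = false := by
        rw [Bool.eq_false_iff]
        intro h4
        rcases List.mem_cons.1 (mem_of_memL h4) with h5 | h5
        · exact hd1 h5
        · exact hdK h5
      rw [hc] at h3
      simp only [hm, cond_false] at h3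
      cases hJ : J[x.1]? with
      | none =>
        refine (Finset.sum_eq_zero fun q _ => ?_).le.trans (Nat.zero_le _)
        rw [inQ, hc]
        simp [hJ]
      | some r =>
        rw [hJ] at h3
        simp only [Nat.ble_eq] at h3
        refine le_trans ?_ ((sum_le_wtI d wts r).trans h3)
        refine Finset.sum_le_sum fun q _ => ?_
        rw [inQ, hc]
        simp only [hJ]
        exact le_rfl
  rw [Finset.sum_const, smul_eq_mul] at h2
  have h3 : M * (6 - K.length) < B.card * M := lt_of_lt_of_le hM (h1.trans h2)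
  have h4 : 6 - K.length < B.card := by
    rw [mul_comm B.card M] at h3
    exact lt_of_mul_lt_mul_left h3 (Nat.zero_le _)
  unfold Eight
  rw [hAc, hBc]
  omega

/-! ### The context of a simple group with prime columns -/

section

variable {S : Type u} [Group S] [Fintype (IrrCharacter S)] {N : ℕ} {Fs : List Fam}
  {RW : List (ℕ × List (ℕ × ℤ))} {K : List ℕ}

theorem of_mem_pick {r : ℕ} {v : List ℤ} : ∀ {L : List (ℕ × ℤ)}, v ∈ pick r L → ∃ w, v = [w] ∧ (r, w) ∈ L
  | [], h => by simp [pick] at h
  | (a, w) :: L, h => by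
    rw [pick] at h
    cases hb : Nat.beq r a
    · rw [hb, cond_false] at h
      obtain ⟨w', h1, h2⟩ := of_mem_pick h
      exact ⟨w', h1, List.mem_cons_of_mem _ h2⟩
    · rw [hb, cond_true] at h
      rcases List.mem_cons.1 h with h | h
      · exact ⟨w, h, by rw [Nat.eq_of_beq_eq_true hb]; exact List.mem_cons_self⟩
      · obtain ⟨w', h1, h2⟩ := of_mem_pick h
        exact ⟨w', h1, List.mem_cons_of_mem _ h2⟩

theorem cell_of_sys {lab : S → ℕ} : ∀ {Ds : List PD} {Ws : List (IrrCharacter S → ℤ)},
    (Ds.all fun D => decide (D.wl.map Prod.fst).Nodup) = true → SysOK lab (Ds.map PD.fam) Ws →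
    ∀ χ : IrrCharacter S, ∃ i, cellD (deg χ) (Ds.map fun D => (D.p, D.wl)) = some (i, Ws.map fun W => W χ)
  | [], _, _, h, χ => by
    rw [List.map_nil] at h
    cases h
    exact ⟨0, rfl⟩
  | D :: Ds, Ws, hnd, h, χ => by
    rw [List.all_cons, Bool.and_eq_true, decide_eq_true_eq] at hnd
    rw [List.map_cons] at h
    cases h with
    | cons h hs =>
      obtain ⟨i, hi⟩ := cell_of_sys hnd.2 hs χ
      obtain ⟨w, hw, hm⟩ := of_mem_pick (h.mem χ)
      obtain ⟨j, hj⟩ := look_of_mem hnd.1 hm
      refine ⟨j + D.wl.length * i, ?_⟩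
      rw [List.map_cons, cellD]
      simp only [hj, hi, List.map_append, hw]
      rfl

theorem deg_sq_lt [Finite S] (hN : Nat.card S = N) (χ : IrrCharacter S) (hχ : (χ : S → ℂ) ≠ 1) : deg χ * deg χ < N := by
  have := Fintype.ofFinite S
  obtain ⟨χ₁, hχ₁⟩ : ∃ χ : IrrCharacter S, (χ : S → ℂ) = 1 := ⟨⟨1, isIrr_one⟩, rfl⟩
  have hd1 : deg χ₁ = 1 := by
    unfold deg charDegree
    rw [hχ₁]
    simp
  have hsq := SmallSimple.DegreeData.sum_sq (G := S)
  have hne : χ ≠ χ₁ := fun h => hχ (by rw [h]; exact hχ₁)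
  classical
  have h4 : ∑ χ' ∈ ({χ, χ₁} : Finset (IrrCharacter S)), charDegree (χ' : S → ℂ) ^ 2 ≤
      ∑ χ' : IrrCharacter S, charDegree (χ' : S → ℂ) ^ 2 := Finset.sum_le_sum_of_subset (Finset.subset_univ _)
  rw [Finset.sum_pair hne, hsq, hN] at h4
  have e1 : charDegree (χ : S → ℂ) = deg χ := rfl
  have e2 : charDegree (χ₁ : S → ℂ) = deg χ₁ := rfl
  rw [e1, e2, hd1, pow_two] at h4
  omega

theorem CC.of_primes [Finite S] [IsSimpleGroup S] (hN : Nat.card S = N) (hnp : ¬ N.Prime) {Ds : List PD}
    (hnd : (Ds.all fun D => decide (D.wl.map Prod.fst).Nodup) = true) (hD : (Ds.all (PD.ok N)) = true)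
    (hx : ∀ D ∈ Ds, D.Cent S) (known : ∀ k ∈ K, ∃ χ : IrrCharacter S, charDegree (χ : S → ℂ) = k) :
    CC S (fun g : S => orderOf g) N (Ds.map PD.fam) (Ds.map fun D => (D.p, D.wl)) K where
  conj := orderOf_conj
  lone := orderOf_one
  card := hN
  sys := by
    have hG : ¬ IsMulCommutative S := by
      intro h
      let _ : CommGroup S := { (inferInstance : Group S) with mul_comm := fun a b => h.is_comm.comm a b }
      have h1 : (Nat.card S).Prime := IsSimpleGroup.prime_card
      rw [hN] at h1
      exact hnp h1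
    obtain ⟨Ws, hs⟩ := sys_of_primes hG hN hD hx SysOK.nil
    rw [List.append_nil] at hs
    exact ⟨Ws, hs, cell_of_sys hnd hs⟩
  one χ h := H653.Sieve.one_of_deg (by rwa [hN]) χ h
  lt := deg_sq_lt hN
  known := known

/-- **Eight degrees from certificates.** -/
theorem CC.eight [Finite S] {lab : S → ℕ} (C : CC S lab N Fs RW K) {L : List (ℕ × ℕ)}
    (pr : (L.all fun pa => Nat.Prime pa.1) = true) (fac : facProd L = N) {cts : List Ct} {J : List (List (ℕ × ℕ))}
    {wts : List ℕ} {M : ℕ} (hJ : allRows N cts (vals RW) J = true) (hc : (cts.all (ctOK N Fs RW K)) = true)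
    (hl : Nat.ble wts.length cts.length = true) (hd : allDiv N (pkD RW J K wts M) L 1 = true)
    (hnd : (1 :: K).Nodup) (hK6 : K.length ≤ 6) (hN : 1 < N) (hM : M * (6 - K.length) < wts.sum) : Eight S := by
  refine eight_of_must (RW := RW) (J := J) (K := K) (wts := wts) (M := M) ?_ hnd hK6 ?_ ?_ hM
  · intro k hk
    obtain ⟨χ, hχ⟩ := C.known k hk
    exact ⟨χ, hχ⟩
  · rintro d ⟨χ, rfl⟩
    have hpr : ∀ pa ∈ L, pa.1.Prime := by
      intro pa hpa
      have := List.all_eq_true.1 pr pa hpa
      simpa using this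
    have hdvd : deg χ ∣ facProd L := by
      rw [fac, ← C.card]
      exact Blocks.Knorr.charDegree_dvd χ.2
    have hlt : deg χ * deg χ < N := by
      by_cases hχ : (χ : S → ℂ) = 1
      · have hd1 : deg χ = 1 := by
          unfold deg charDegree
          rw [hχ]
          simp
        rw [hd1]
        exact hN
      · exact C.lt χ hχ
    have h3 := allDiv_spec hpr hd (deg χ) hdvd (by rwa [one_mul])
    rw [one_mul] at h3
    exact h3
  · intro q hq
    have hq' : q < cts.length := lt_of_lt_of_le hq (Nat.le_of_ble_eq_true hl)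
    have h1 : cts[q]? = some cts[q] := List.getElem?_eq_getElem hq'
    obtain ⟨χ, h2, h3, h4⟩ := C.must hJ h1 (List.all_eq_true.1 hc _ (List.getElem_mem hq'))
    exact ⟨deg χ, ⟨χ, rfl⟩, fun h5 => h2 (C.one χ h5), h3, h4⟩

end

end Cfsg.Agent.H471.Eight.Cell
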